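import Cfsg.Agent.H433.K547.TwoLin
import Cfsg.Agent.H118.K547.TSer
import Cfsg.Agent.H671.K547.Congr
import Cfsg.Agent.H742.TwoC
import Cfsg.Agent.S2121
import Cfsg.Agent.S2129

/-!
# S4547, QE13: `G₂(q)` and `³D₄(q)`, `q` even (helper433)

* `isInn_of_odd` : if `|Out S|` is odd then an automorphism of `2`-power order modulo inner ones is inner;
* `row_G2`, `row_3D4` : `GInv3 τ` for `τ` not inner.
-/

set_option autoImplicit false
set_option linter.unusedSectionVars false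

open scoped ComplexConjugate
open Cfsg

namespace Cfsg.Agent.H433.K547

open Cfsg.Agent.H821.K547 Cfsg.Agent.H307.QE
open CoxeterSystem Cfsg.Agent.ChevalleyStructure.CoxeterGeom Cfsg.Agent.Tits.Roots Cfsg.Agent.Tits.Core
  Cfsg.Agent.Tits.Exchange Cfsg.Agent.Nodes.Reps Cfsg.Agent.Nodes.BNOf Cfsg.Agent.Nodes.StabComb
  Cfsg.Agent.Nodes.Bruhat Cfsg.Agent.Nodes.OppDec Cfsg.Agent.Nodes.LeviDec Cfsg.Agent.H53.HC
  Cfsg.Agent.KFacts.RgdAut Cfsg.Agent.H246.Dl Cfsg.Agent.KFacts.RgdDiag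

universe u v

section out

variable {S : Type u} [Group S]

theorem isInn_of_odd [Finite S] (ho : Odd (Nat.card (Cfsg.Out S))) {τ : MulAut S} (hτ : TwoPow τ) : IsInn τ := by
  obtain ⟨k, s, hs⟩ := hτ
  have h1 : (QuotientGroup.mk τ : Cfsg.Out S) ^ 2 ^ k = 1 := by
    rw [← QuotientGroup.mk_pow, QuotientGroup.eq_one_iff]
    exact ⟨s, by ext x; exact (hs x).symm⟩
  have h2 : orderOf (QuotientGroup.mk τ : Cfsg.Out S) ∣ 2 ^ k := orderOf_dvd_of_pow_eq_one h1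
  have h3 : orderOf (QuotientGroup.mk τ : Cfsg.Out S) ∣ Nat.card (Cfsg.Out S) := orderOf_dvd_natCard _
  have h4 : orderOf (QuotientGroup.mk τ : Cfsg.Out S) = 1 :=
    Nat.eq_one_of_dvd_coprimes ((Nat.coprime_two_right.2 ho).pow_right k) h3 h2
  rw [orderOf_eq_one_iff, QuotientGroup.eq_one_iff] at h4
  obtain ⟨g, hg⟩ := h4
  exact ⟨g, fun x => by rw [← hg]; rfl⟩

end out

/-- `3 ∣ q - 1` for an even power -/
theorem three_dvd {f : ℕ} (hf : Even f) : 3 ∣ 2 ^ f - 1 := by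
  obtain ⟨k, rfl⟩ := hf
  rw [← two_mul, pow_mul]
  have h1 : (2 ^ 2 - 1) ∣ (2 ^ 2) ^ k - 1 ^ k := Nat.sub_dvd_pow_sub_pow _ _ _
  rwa [one_pow] at h1

section core

variable {I W : Type*} {Y : Type u} [Fintype I] [DecidableEq I] [Group W] [Group Y] {M : CoxeterMatrix I}
  {cs : CoxeterSystem M W} {A : I → I → ℤ} {h : IsCartan M A} {T : Subgroup Y} {n : I → Y}
  {X : (I → ℤ) → Subgroup Y}

/-- **`GInv3` from the two linear characters.** -/
theorem gInv3_of_L2 (R : RGD cs h 2 T n X) [Finite W] [Finite Y] (hG : GG cs h T X = ⊤)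
    (hT : ∀ x ∈ T, ∀ y ∈ T, x * y = y * x) {i j : I} (hI : ∀ k, k = i ∨ k = j) {f g : T →* ℂˣ}
    (L : L2 R i j f g) (hC : H601.OddDeg.TwoC Y) {τ : MulAut Y} (hτ : TwoPow τ) : GInv3 τ := by
  obtain ⟨s, σ, hN⟩ := exists_nrm R hG hτ
  obtain rfl := L.sigma hT hI hN
  refine gInv3_conj s ?_
  refine H118.K547.gInv3_of_homs hN hG hC g f L.g_ne L.f_ne ?_ ?_ ?_
  · intro x hx
    by_contra hcon
    push Not at hcon
    obtain ⟨w, hw⟩ := id hx
    refine L.not_conj hT hI w x hw ?_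
    ext t
    congr 1
    exact (hcon t).symm
  · obtain ⟨w, y, hy, e⟩ := L.stable_g hN
    exact ⟨y, ⟨w, hy⟩, fun t => DFunLike.congr_fun e t⟩
  · obtain ⟨w, y, hy, e⟩ := L.stable_f hN
    exact ⟨y, ⟨w, hy⟩, fun t => DFunLike.congr_fun e t⟩

end core

section rows

open Cfsg.Agent.H619.Gow (Nd nh nh_act nd_chev isTypeG2 cartan01 cartan10 diag_comm two_nodes Pd ln nd_tw act01 act10
  mem_Fx3 fx1 nm nm_surj)
open Cfsg.Agent.H650.GowLin (exists_lam)
open Cfsg.Agent.ChevalleyStructure.SL2Hom (up lo)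
open Cfsg.Agent.Nodes.RGDFoldSL (wS hS coe_wS coe_hS Fx mem_Fx)
open Cfsg.Lie Cfsg.Agent.ChevalleyStructure Cfsg.Agent.ChevalleyStructure.Elts Cfsg.Agent.ChevalleyStructure.NPerm
  Cfsg.Agent.Nodes.RGDChev

/-- **`G₂(q)`** -/
theorem model_G2 {F : Type u} [Field F] [Fintype F] [CharP F 2] (hF : 3 ≤ Fintype.card F)
    (hC : H601.OddDeg.TwoC (Lie.chevG2.group F)) {τ : MulAut (Lie.chevG2.group F)} (hτ : TwoPow τ) (hni : ¬ IsInn τ) :
    GInv3 τ := by
  have : Fact (Nat.Prime 2) := ⟨Nat.prime_two⟩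
  have : Finite CoxeterMatrix.G₂.Group := finite_W isTypeG2 CoxeterMatrix.G₂.toCoxeterSystem
  have R := Cfsg.Agent.Nodes.RGDChev.rgd (K := F) isTypeG2 CoxeterMatrix.G₂.toCoxeterSystem 2
  have hG : GG CoxeterMatrix.G₂.toCoxeterSystem isTypeG2.isCartan ((chevG2.diagonalSubgroup F).subgroupOf (chevG2.group F))
      (fun x => (XV chevG2 2 F x).subgroupOf (chevG2.group F)) = ⊤ :=
    Cfsg.Agent.KFacts.RgdFilt.GG_eq_top (Cfsg.Agent.Nodes.RGDChev.G1_eq_top isTypeG2 _)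
  have hT : ∀ x ∈ (chevG2.diagonalSubgroup F).subgroupOf (chevG2.group F),
      ∀ y ∈ (chevG2.diagonalSubgroup F).subgroupOf (chevG2.group F), x * y = y * x := by
    intro x hx y hy
    exact Subtype.ext (diag_comm isTypeG2.inList (Subgroup.mem_subgroupOf.1 hx) (Subgroup.mem_subgroupOf.1 hy))
  have N0 := nd_chev (K := F) isTypeG2 CoxeterMatrix.G₂.toCoxeterSystem 0
  have N1 := nd_chev (K := F) isTypeG2 CoxeterMatrix.G₂.toCoxeterSystem 1
  have h3 : 3 ∣ Nat.card F - 1 := by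
    obtain ⟨f, hp, hf⟩ := FiniteField.card F 2
    rw [Nat.card_eq_fintype_card, hf]
    refine three_dvd ?_
    by_contra ho
    rw [Nat.not_even_iff_odd] at ho
    have h1 := Cfsg.Agent.S2121.result (F := F) 2 f hf (by rw [← hf]; exact hF)
    rw [if_neg (by decide)] at h1
    exact hni (isInn_of_odd (by rw [h1]; exact ho) hτ)
  obtain ⟨lam, hl3, hl1⟩ := exists_lam (F := F) (by rwa [Nat.card_units])
  obtain ⟨f, g, L⟩ := L2.of_nd R hT N1 N0 lam lam hl3 hl3 hl1 (fun s => s⁻¹ ^ 3) (by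
      intro s
      rw [nh_act isTypeG2 0 1 s.ne_zero 1, cartan01]
      congr 3
      rw [Units.val_pow_eq_pow_val, Units.val_inv_eq_inv_val, zpow_neg, inv_pow]
      congr 1
      exact zpow_natCast (s : F) 3)
    (fun s => s⁻¹) (by
      intro s
      rw [nh_act isTypeG2 1 0 s.ne_zero 1, cartan10]
      congr 3
      rw [Units.val_inv_eq_inv_val, zpow_neg, zpow_one])
    (fun s => by rw [map_pow, hl3]) (fun s => by rw [map_inv])
  exact gInv3_of_L2 R hG hT (two_nodes (by decide)) L hC hτ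

/-- **`³D₄(q)`** -/
theorem model_3D4 {K : Type u} [Field K] [Fintype K] [CharP K 2] {q : ℕ} (hq : IsPrimePow q)
    (hK : Fintype.card K = q ^ 3) (hC : H601.OddDeg.TwoC (Lie.twistedD4 K q)) {τ : MulAut (Lie.twistedD4 K q)}
    (hτ : TwoPow τ) (hni : ¬ IsInn τ) : GInv3 τ := by
  have : Fact (Nat.Prime 2) := ⟨Nat.prime_two⟩
  obtain ⟨φ, hφ⟩ := D4Fixed.exists_frob hq hK
  have hle := D4Fixed.twisted_le_fix hK hφ
  have h3 := fun t => mem_Fx3 (φ := φ) hK hφ t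
  have : Finite CoxeterMatrix.G₂.Group := finite_W isTypeG2 CoxeterMatrix.G₂.toCoxeterSystem
  have R := Nodes.RGDTwD4.rgd (K := K) CoxeterMatrix.G₂.toCoxeterSystem hK hφ 2
  have hG : GG CoxeterMatrix.G₂.toCoxeterSystem Nodes.RGDTwD4.isCartan (Nodes.RGDTwD4.T K q)
      (Nodes.RGDTwD4.X φ q) = ⊤ :=
    Cfsg.Agent.KFacts.RgdFilt.GG_eq_top (Nodes.RGDTwD4.G1_eq_top CoxeterMatrix.G₂.toCoxeterSystem hK hφ)
  have hT : ∀ x ∈ Nodes.RGDTwD4.T K q, ∀ y ∈ Nodes.RGDTwD4.T K q, x * y = y * x := by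
    intro x hx y hy
    exact Subtype.ext (diag_comm Nodes.RGDTwD4.hp.inList (Subgroup.mem_inf.1 (Subgroup.mem_subgroupOf.1 hx)).1
      (Subgroup.mem_inf.1 (Subgroup.mem_subgroupOf.1 hy)).1)
  have N0 := nd_tw hφ hle CoxeterMatrix.G₂.toCoxeterSystem 0
  have N1 := nd_tw hφ hle CoxeterMatrix.G₂.toCoxeterSystem 1
  have c0 : CharP (Fx φ (ln 0)) 2 := (RingHom.charP_iff _ (Fx φ (ln 0)).subtype.injective 2).2 inferInstance
  have c1 : CharP (Fx φ (ln 1)) 2 := (RingHom.charP_iff _ (Fx φ (ln 1)).subtype.injective 2).2 inferInstance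
  have f0 : Finite (Fx φ (ln 0)) := inferInstance
  have f1 : Finite (Fx φ (ln 1)) := inferInstance
  -- `q` is a square
  obtain ⟨f, hf1, hf⟩ : ∃ f : ℕ, 1 ≤ f ∧ q = 2 ^ f := by
    obtain ⟨m, -, hm⟩ := FiniteField.card K 2
    have h1 : q ∣ 2 ^ (m : ℕ) := by
      rw [← hm, hK]
      exact dvd_pow_self q (by norm_num)
    obtain ⟨f, -, hf⟩ := (Nat.dvd_prime_pow Nat.prime_two).1 h1
    refine ⟨f, ?_, hf⟩
    rcases Nat.eq_zero_or_pos f with h0 | h0
    · have := hq.two_le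
      rw [hf, h0] at this
      norm_num at this
    · exact h0
  have hev : Even f := by
    by_contra ho
    rw [Nat.not_even_iff_odd] at ho
    have h1 := Cfsg.Agent.S2129.result (K := K) 2 f (by rw [hK, hf, ← pow_mul, mul_comm]) hf1
    rw [← hf] at h1
    exact hni (isInn_of_odd (by rw [h1]; exact Odd.mul (by decide) ho) hτ)
  have hd : 3 ∣ Nat.card (Fx φ (ln 0)) - 1 := by
    have hq3 : 3 ∣ q - 1 := by rw [hf]; exact three_dvd hev
    have hk3 : 3 ∣ Nat.card Kˣ := by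
      rw [Nat.card_units, Nat.card_eq_fintype_card, hK]
      have h1 : (q - 1) ∣ q ^ 3 - 1 ^ 3 := Nat.sub_dvd_pow_sub_pow _ _ _
      rw [one_pow] at h1
      exact hq3.trans h1
    have : Fact (Nat.Prime 3) := ⟨Nat.prime_three⟩
    obtain ⟨u, hu⟩ := exists_prime_orderOf_dvd_card' 3 hk3
    have huq : ((u : Kˣ) : K) ^ q = (u : K) := by
      obtain ⟨c, hc⟩ := hq3
      have h2 : q = 3 * c + 1 := by
        have := hq.two_le
        omega
      rw [h2, pow_succ, pow_mul, ← Units.val_pow_eq_pow_val, ← hu, pow_orderOf_eq_one, Units.val_one, one_pow, one_mul]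
    have hmem : ((u : Kˣ) : K) ∈ Fx φ (ln 0) := mem_Fx.2 ((hφ _).trans huq)
    let v : (Fx φ (ln 0))ˣ := Units.mk0 ⟨(u : K), hmem⟩ fun h => u.ne_zero (congrArg Subtype.val h)
    have hv : orderOf v = 3 := by
      refine orderOf_eq_prime ?_ fun h1 => ?_
      · apply Units.ext
        apply Subtype.ext
        show ((u : Kˣ) : K) ^ 3 = 1
        rw [← Units.val_pow_eq_pow_val, ← hu, pow_orderOf_eq_one, Units.val_one]
      · have h2 : u = 1 := Units.ext (congrArg (fun w : (Fx φ (ln 0))ˣ => ((w : Fx φ (ln 0)) : K)) h1)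
        rw [h2, orderOf_one] at hu
        omega
    rw [← Nat.card_units, ← hv]
    exact orderOf_dvd_natCard v
  obtain ⟨lam, hl3, u, hl1⟩ := exists_lam (F := Fx φ (ln 0)) (by rwa [Nat.card_units])
  -- the inclusion of the fixed field
  let ic : (Fx φ (ln 0))ˣ → (Fx φ (ln 1))ˣ := fun s =>
    Units.mk0 ⟨((s⁻¹ : (Fx φ (ln 0))ˣ) : Fx φ (ln 0)), mem_Fx.2 (h3 _)⟩
      fun h => (s⁻¹).ne_zero (Subtype.ext (congrArg (fun x : Fx φ (ln 1) => (x : K)) h))
  obtain ⟨f', g, L⟩ := L2.of_nd R hT N1 N0 (lam.comp (Units.map (nm h3))) lam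
    (fun t => hl3 _) hl3 (by
      obtain ⟨t, ht⟩ := nm_surj hq.one_lt hK hφ h3 u
      exact ⟨t, by rw [MonoidHom.comp_apply, ht]; exact hl1⟩) ic (by
      intro s
      refine act01 hφ hle _ s.ne_zero (fx1 _) _ _ ?_
      show (((s⁻¹ : (Fx φ (ln 0))ˣ) : Fx φ (ln 0)) : K) * 1 = ((s : Fx φ (ln 0)) : K)⁻¹ * 1
      rw [Units.val_inv_eq_inv_val]
      rfl) (fun s => (Units.map (nm h3) s)⁻¹) (by
      intro s
      refine act10 hφ hle _ s.ne_zero _ _ ?_
      show ((((Units.map (nm h3) s)⁻¹ : (Fx φ (ln 0))ˣ) : Fx φ (ln 0)) : K) * 1 = _ * 1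
      rw [Units.val_inv_eq_inv_val]
      rfl) (by
      intro s
      have e : Units.map (nm h3) (ic s) = s⁻¹ ^ 3 := by
        apply Units.ext
        apply Subtype.ext
        have e1 : φ (((s⁻¹ : (Fx φ (ln 0))ˣ) : Fx φ (ln 0)) : K) = (((s⁻¹ : (Fx φ (ln 0))ˣ) : Fx φ (ln 0)) : K) := fx1 _
        show (((s⁻¹ : (Fx φ (ln 0))ˣ) : Fx φ (ln 0)) : K) * φ (((s⁻¹ : (Fx φ (ln 0))ˣ) : Fx φ (ln 0)) : K) *
          φ (φ (((s⁻¹ : (Fx φ (ln 0))ˣ) : Fx φ (ln 0)) : K)) = (((s⁻¹ ^ 3 : (Fx φ (ln 0))ˣ) : Fx φ (ln 0)) : K)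
        rw [e1, e1, Units.val_pow_eq_pow_val]
        show _ = (((s⁻¹ : (Fx φ (ln 0))ˣ) : Fx φ (ln 0)) : K) ^ 3
        ring
      rw [MonoidHom.comp_apply, e, map_pow, hl3]) (by
      intro s
      rw [map_inv]
      rfl)
  exact gInv3_of_L2 R hG hT (two_nodes (by decide)) L hC hτ

variable {S : Type u} [Group S] [Finite S] [IsSimpleGroup S]

/-- **QE13, `G₂(q)`.** -/
theorem row_G2 (hS : IsLieTypeChar 2 S) {F : Type v} [Field F] [Fintype F] [CharP F 2] (hF : 3 ≤ Fintype.card F)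
    (e : S ≃* ↥(Lie.chevG2.group F)) {τ : MulAut S} (hτ : TwoPow τ) (hni : ¬ IsInn τ) : GInv3 τ := by
  have h1 := model_G2 hF ((H742.TwoC.twoC_charTwo hS).congr e) (H671.K547.twoPow_congr e hτ)
    (fun hi => hni ((H671.K547.isInn_congr_iff e).1 hi))
  exact H671.K547.gInv3_congr e h1

/-- **QE13, `³D₄(q)`.** -/
theorem row_3D4 (hS : IsLieTypeChar 2 S) {K : Type v} [Field K] [Fintype K] [CharP K 2] {q : ℕ} (hq : IsPrimePow q)
    (hK : Fintype.card K = q ^ 3) (e : S ≃* ↥(Lie.twistedD4 K q)) {τ : MulAut S} (hτ : TwoPow τ) (hni : ¬ IsInn τ) :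
    GInv3 τ := by
  have h1 := model_3D4 hq hK ((H742.TwoC.twoC_charTwo hS).congr e) (H671.K547.twoPow_congr e hτ)
    (fun hi => hni ((H671.K547.isInn_congr_iff e).1 hi))
  exact H671.K547.gInv3_congr e h1

end rows

end Cfsg.Agent.H433.K547
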