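import Cfsg.Agent.H307.QE.Defs
import Cfsg.Agent.H687.FourK.TwD

/-!
# S4547, QE13: two linear characters of order three of the torus in rank two (helper433)

`L2 R i j f g` : `f`, `g` linear characters of order three of `T`, `f^{s_i} = f⁻¹`, `f^{s_j} = f`, `g^{s_j} = g⁻¹`,
`g^{s_i} = g f`, trivial on the centralizers of the root groups (`3 ∣ q - 1` for `G₂(q)` and `³D₄(q)`).

* `L2.of_nd` : from the rank one subgroups;
* `L2.sigma` : a normalised automorphism fixes the nodes;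
* `L2.stable_f`, `L2.stable_g`, `L2.not_conj` : `f` and `g` are stable under the automorphism up to the Weyl group, and not
  conjugate under the Weyl group.
-/

set_option autoImplicit false
set_option linter.unusedSectionVars false

open scoped ComplexConjugate
open Cfsg

namespace Cfsg.Agent.H433.K547

open CoxeterSystem Cfsg.Agent.ChevalleyStructure.CoxeterGeom Cfsg.Agent.Tits.Roots Cfsg.Agent.Tits.Core
  Cfsg.Agent.Tits.Exchange Cfsg.Agent.Nodes.Reps Cfsg.Agent.Nodes.BNOf Cfsg.Agent.Nodes.StabComb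
  Cfsg.Agent.Nodes.Bruhat Cfsg.Agent.Nodes.OppDec Cfsg.Agent.Nodes.LeviDec Cfsg.Agent.H53.HC
  Cfsg.Agent.KFacts.RgdAut Cfsg.Agent.H246.Dl Cfsg.Agent.KFacts.RgdDiag
open Cfsg.Agent.H619.Gow (cv coe_cv comp_cv_mul comp_cv_rp Nd exists_chi chi_unique cv_simple unit_cube_sq hS_up)
open Cfsg.Agent.ChevalleyStructure.SL2Hom (up lo)
open Cfsg.Agent.Nodes.RGDFoldSL (wS hS coe_wS coe_hS)
open Cfsg.Agent.H307.QE

local notation "SL2 " F => Matrix.SpecialLinearGroup (Fin 2) F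

universe u

/-- cube roots of one -/
theorem cube_cases {x y : ℂˣ} (hx : x ^ 3 = 1) (hx1 : x ≠ 1) (hy : y ^ 3 = 1) (hy1 : y ≠ 1) : y = x ∨ y = x⁻¹ := by
  have key : ∀ {z : ℂˣ}, z ^ 3 = 1 → z ≠ 1 → ((z : ℂ) * z + z + 1 = 0) := by
    intro z hz hz1
    have h1 : ((z : ℂ) - 1) * ((z : ℂ) * z + z + 1) = 0 := by
      have h2 : ((z : ℂ)) ^ 3 = 1 := by
        have := congrArg (fun w : ℂˣ => (w : ℂ)) hz
        simpa using this
      linear_combination h2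
    rcases mul_eq_zero.1 h1 with h | h
    · exact absurd (Units.ext (sub_eq_zero.1 h)) hz1
    · exact h
  have hx' := key hx hx1
  have hy' := key hy hy1
  have h1 : ((y : ℂ) - x) * ((y : ℂ) + x + 1) = 0 := by linear_combination hy' - hx'
  rcases mul_eq_zero.1 h1 with h | h
  · exact Or.inl (Units.ext (sub_eq_zero.1 h))
  · right
    rw [eq_inv_iff_mul_eq_one]
    apply Units.ext
    push_cast
    have h2 : (y : ℂ) = -(x : ℂ) - 1 := by linear_combination h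
    rw [h2]
    linear_combination -hx'

/-- characters of order three with a cyclic quotient -/
theorem eq_or_inv {T : Type*} [Group T] {f g : T → ℂˣ} (hf : ∀ t, f t ^ 3 = 1) (hg : ∀ t, g t ^ 3 = 1)
    (hf1 : ∃ t, f t ≠ 1) (hg1 : ∃ t, g t ≠ 1) {t₀ : T} (h : ∀ t, ∃ k : ℕ, f t = f t₀ ^ k ∧ g t = g t₀ ^ k) :
    (∀ t, g t = f t) ∨ ∀ t, g t = (f t)⁻¹ := by
  have h1 : f t₀ ≠ 1 := by
    intro h1
    obtain ⟨t, ht⟩ := hf1
    obtain ⟨k, hk, -⟩ := h t
    exact ht (by rw [hk, h1, one_pow])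
  have h2 : g t₀ ≠ 1 := by
    intro h1
    obtain ⟨t, ht⟩ := hg1
    obtain ⟨k, -, hk⟩ := h t
    exact ht (by rw [hk, h1, one_pow])
  rcases cube_cases (hf t₀) h1 (hg t₀) h2 with h3 | h3
  · left
    intro t
    obtain ⟨k, hk, hk'⟩ := h t
    rw [hk', hk, h3]
  · right
    intro t
    obtain ⟨k, hk, hk'⟩ := h t
    rw [hk', hk, h3, inv_pow]

variable {I W : Type*} {Y : Type u} [Fintype I] [DecidableEq I] [Group W] [Group Y] {M : CoxeterMatrix I}
  {cs : CoxeterSystem M W} {A : I → I → ℤ} {h : IsCartan M A} {T : Subgroup Y} {n : I → Y}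
  {X : (I → ℤ) → Subgroup Y}

/-- `t` centralizes the root group of the node `i` -/
def Cz (X : (I → ℤ) → Subgroup Y) (i : I) (t : Y) : Prop := ∀ x ∈ X (sr i), t * x = x * t

/-- the two linear characters -/
structure L2 (R : RGD cs h 2 T n X) (i j : I) (f g : T →* ℂˣ) : Prop where
  f3 : ∀ t, f t ^ 3 = 1
  g3 : ∀ t, g t ^ 3 = 1
  f1 : ∃ t, f t ≠ 1
  g1 : ∃ t, g t ≠ 1
  fi : ∀ t, f (cv T (R.nsys.norm i) t) = (f t)⁻¹
  fj : ∀ t, f (cv T (R.nsys.norm j) t) = f t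
  gj : ∀ t, g (cv T (R.nsys.norm j) t) = (g t)⁻¹
  gi : ∀ t, g (cv T (R.nsys.norm i) t) = g t * f t
  kf : ∀ t : T, Cz X i (t : Y) → f t = 1
  kg : ∀ t : T, Cz X j (t : Y) → g t = 1
  ci : ∃ t₀ : T, ∀ t : T, ∃ k : ℕ, Cz X i ((t * (t₀ ^ k)⁻¹ : T) : Y)
  cj : ∃ t₀ : T, ∀ t : T, ∃ k : ℕ, Cz X j ((t * (t₀ ^ k)⁻¹ : T) : Y)

section of_nd

/-- the centralizer of the root group from the character of the torus -/
theorem cz_iff {R : RGD cs h 2 T n X} {i : I} {F : Type*} [Field F] {φ : (SL2 F) →* Y} (N : Nd cs h T n X i φ)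
    {χ : T →* Fˣ} (hχ : ∀ (t : T) (a : F), (t : Y) * φ (up a) * (t : Y)⁻¹ = φ (up ((χ t : F) * a))) (t : T) :
    Cz X i (t : Y) ↔ χ t = 1 := by
  constructor
  · intro h1
    refine chi_unique (R := R) (i := i) N hχ ?_
    rw [h1 _ ((N.mem_X _).2 ⟨1, rfl⟩), mul_inv_cancel_right, Units.val_one, one_mul]
  · intro h1 x hx
    obtain ⟨a, rfl⟩ := (N.mem_X _).1 hx
    have h2 := hχ t a
    rw [h1, Units.val_one, one_mul] at h2
    exact mul_inv_eq_iff_eq_mul.1 h2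

theorem exists_gen {R : RGD cs h 2 T n X} {i : I} {F : Type*} [Field F] [Finite F] {φ : (SL2 F) →* Y}
    (N : Nd cs h T n X i φ) {χ : T →* Fˣ}
    (hχ : ∀ (t : T) (a : F), (t : Y) * φ (up a) * (t : Y)⁻¹ = φ (up ((χ t : F) * a))) :
    ∃ t₀ : T, ∀ t : T, ∃ k : ℕ, Cz X i ((t * (t₀ ^ k)⁻¹ : T) : Y) := by
  obtain ⟨⟨c, t₀, rfl⟩, hc⟩ := IsCyclic.exists_generator (α := χ.range)
  refine ⟨t₀, fun t => ?_⟩
  obtain ⟨k, hk⟩ := mem_powers_iff_mem_zpowers.2 (hc ⟨χ t, t, rfl⟩)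
  have hk' : χ t₀ ^ k = χ t := congrArg Subtype.val hk
  refine ⟨k, (cz_iff (R := R) N hχ _).2 ?_⟩
  rw [map_mul, map_inv, map_pow, hk', mul_inv_cancel]

/-- **from the rank one subgroups** (the data of `ratOdd_two_lin`) -/
theorem L2.of_nd (R : RGD cs h 2 T n X) (hT : ∀ x ∈ T, ∀ y ∈ T, x * y = y * x) {i j : I}
    {Fi : Type*} [Field Fi] [Finite Fi] [CharP Fi 2] {φi : (SL2 Fi) →* Y} (Ni : Nd cs h T n X i φi)
    {Fj : Type*} [Field Fj] [Finite Fj] [CharP Fj 2] {φj : (SL2 Fj) →* Y} (Nj : Nd cs h T n X j φj)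
    (μi : Fiˣ →* ℂˣ) (μj : Fjˣ →* ℂˣ) (h3i : ∀ u, μi u ^ 3 = 1) (h3j : ∀ u, μj u ^ 3 = 1) (hi1 : ∃ u, μi u ≠ 1)
    (eij : Fjˣ → Fiˣ) (heij : ∀ s : Fjˣ, φj (hS (s : Fj)) * φi (up 1) * (φj (hS (s : Fj)))⁻¹ =
      φi (up ((eij s : Fi) * 1)))
    (eji : Fiˣ → Fjˣ) (heji : ∀ s : Fiˣ, φi (hS (s : Fi)) * φj (up 1) * (φi (hS (s : Fi)))⁻¹ =
      φj (up ((eji s : Fj) * 1)))
    (hb : ∀ s, μi (eij s) = 1) (hd : ∀ s, μj (eji s) = (μi s)⁻¹) : ∃ f g : T →* ℂˣ, L2 R i j f g := by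
  obtain ⟨χi, hχi⟩ := exists_chi Ni R hT
  obtain ⟨χj, hχj⟩ := exists_chi Nj R hT
  have hii : ∀ s : Fiˣ, χi ⟨φi (hS (s : Fi)), Ni.h1 _ s.ne_zero⟩ = s * s := by
    intro s
    refine chi_unique Ni R hχi ?_
    have h2 := congrArg φi (hS_up s.ne_zero 1)
    rw [map_mul, map_mul] at h2
    rw [mul_inv_eq_iff_eq_mul, h2]
    rfl
  have hjj : ∀ s : Fjˣ, χj ⟨φj (hS (s : Fj)), Nj.h1 _ s.ne_zero⟩ = s * s := by
    intro s
    refine chi_unique Nj R hχj ?_
    have h2 := congrArg φj (hS_up s.ne_zero 1)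
    rw [map_mul, map_mul] at h2
    rw [mul_inv_eq_iff_eq_mul, h2]
    rfl
  have hij' : ∀ s : Fjˣ, χi ⟨φj (hS (s : Fj)), Nj.h1 _ s.ne_zero⟩ = eij s := fun s =>
    chi_unique Ni R hχi (heij s)
  have hji' : ∀ s : Fiˣ, χj ⟨φi (hS (s : Fi)), Ni.h1 _ s.ne_zero⟩ = eji s := fun s =>
    chi_unique Nj R hχj (heji s)
  have hsq : ∀ x : ℂˣ, x ^ 3 = 1 → x * (x * x)⁻¹ = x⁻¹ := fun x _ => by
    rw [mul_inv, ← mul_assoc, mul_inv_cancel, one_mul]
  refine ⟨μi.comp χi, μj.comp χj, fun t => h3i _, fun t => h3j _, ?_, ?_, ?_, ?_, ?_, ?_, ?_, ?_,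
    exists_gen (R := R) Ni hχi, exists_gen (R := R) Nj hχj⟩
  · obtain ⟨u, hu⟩ := hi1
    refine ⟨⟨φi (hS (u : Fi)), Ni.h1 _ u.ne_zero⟩, fun h2 => ?_⟩
    rw [MonoidHom.comp_apply, hii, map_mul] at h2
    exact hu (unit_cube_sq (h3i u) h2)
  · obtain ⟨u, hu⟩ := hi1
    refine ⟨⟨φi (hS (u : Fi)), Ni.h1 _ u.ne_zero⟩, fun h2 => ?_⟩
    rw [MonoidHom.comp_apply, hji', hd, inv_eq_one] at h2
    exact hu h2
  · intro t
    rw [MonoidHom.comp_apply, cv_simple Ni R hT hχi t, map_mul, map_inv, hii, map_mul, map_inv,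
      map_mul, MonoidHom.comp_apply]
    exact hsq _ (h3i _)
  · intro t
    rw [MonoidHom.comp_apply, cv_simple Nj R hT hχj t, map_mul, map_inv, hij', map_mul, map_inv,
      hb, inv_one, mul_one]
    rfl
  · intro t
    rw [MonoidHom.comp_apply, cv_simple Nj R hT hχj t, map_mul, map_inv, hjj, map_mul, map_inv,
      map_mul, MonoidHom.comp_apply]
    exact hsq _ (h3j _)
  · intro t
    rw [MonoidHom.comp_apply, cv_simple Ni R hT hχi t, map_mul, map_inv, hji', map_mul, map_inv,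
      hd, inv_inv]
    rfl
  · intro t ht
    rw [MonoidHom.comp_apply, (cz_iff (R := R) Ni hχi t).1 ht, map_one]
  · intro t ht
    rw [MonoidHom.comp_apply, (cz_iff (R := R) Nj hχj t).1 ht, map_one]

end of_nd

variable {R : RGD cs h 2 T n X} {i j : I} {f g : T →* ℂˣ} {β : MulAut Y} {σ : Equiv.Perm I}

/-- `β` and the centralizers of the root groups -/
theorem cz_map (hD : Diag T X β σ) {k : I} {t : Y} (ht : Cz X k t) : Cz X (σ k) (β t) := by
  intro x hx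
  have h1 : β⁻¹ x ∈ X (sr k) := by
    rw [← hD.pos, MulAut.apply_inv_self]
    exact hx
  have h2 := congrArg β (ht _ h1)
  rwa [map_mul, map_mul, MulAut.apply_inv_self] at h2

/-- the torus and `β n_k` -/
theorem beta_cv [Finite W] (hN : Nrm R β σ) (hT : ∀ x ∈ T, ∀ y ∈ T, x * y = y * x) (k : I) (t : T) :
    rAut β hN.fixT (cv T (R.nsys.norm k) t) = cv T (R.nsys.norm (σ k)) (rAut β hN.fixT t) := by
  apply Subtype.ext
  rw [rAut_coe, coe_cv, coe_cv, rAut_coe, map_mul, map_mul, map_inv]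
  have h1 := Rp.unique (hN.diag.rp (R := R) k) (rp_simple cs R.nsys (σ k))
  have h2 : (β (n k))⁻¹ * β t * β (n k) ∈ T := by
    have h3 : β ((cv T (R.nsys.norm k) t : T) : Y) ∈ T := (hN.fixT _).2 (cv T (R.nsys.norm k) t).2
    rwa [coe_cv, map_mul, map_mul, map_inv] at h3
  have h3 := hT _ h1 _ h2
  have h4 : (n (σ k))⁻¹ * β t * n (σ k) =
      ((β (n k))⁻¹ * n (σ k))⁻¹ * (((β (n k))⁻¹ * β t * β (n k)) * ((β (n k))⁻¹ * n (σ k))) := by group
  rw [h4, ← h3]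
  group

namespace L2

theorem f_pow (L : L2 R i j f g) : ∃ t₀ : T, ∀ t : T, ∃ k : ℕ, f t = f t₀ ^ k ∧ Cz X i ((t * (t₀ ^ k)⁻¹ : T) : Y) := by
  obtain ⟨t₀, ht₀⟩ := L.ci
  refine ⟨t₀, fun t => ?_⟩
  obtain ⟨k, hk⟩ := ht₀ t
  refine ⟨k, ?_, hk⟩
  have h1 := L.kf _ hk
  rw [map_mul, map_inv, map_pow] at h1
  exact mul_inv_eq_one.1 h1

theorem g_pow (L : L2 R i j f g) : ∃ t₀ : T, ∀ t : T, ∃ k : ℕ, g t = g t₀ ^ k ∧ Cz X j ((t * (t₀ ^ k)⁻¹ : T) : Y) := by
  obtain ⟨t₀, ht₀⟩ := L.cj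
  refine ⟨t₀, fun t => ?_⟩
  obtain ⟨k, hk⟩ := ht₀ t
  refine ⟨k, ?_, hk⟩
  have h1 := L.kg _ hk
  rw [map_mul, map_inv, map_pow] at h1
  exact mul_inv_eq_one.1 h1

/-- **The nodes are fixed.** -/
theorem sigma [Finite W] (L : L2 R i j f g) (hT : ∀ x ∈ T, ∀ y ∈ T, x * y = y * x) (hI : ∀ k, k = i ∨ k = j)
    (hN : Nrm R β σ) : σ = 1 := by
  rcases hI (σ i) with hi | hi
  · ext k
    rw [Equiv.Perm.one_apply]
    rcases hI k with rfl | rfl
    · exact hi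
    · rcases hI (σ k) with hk | hk
      · have h1 : k = i := σ.injective (hk.trans hi.symm)
        rw [h1]
        exact hi
      · exact hk
  · exfalso
    by_cases hij : i = j
    · subst hij
      -- impossible: `f (cv i) = f⁻¹ = f`
      obtain ⟨t, ht⟩ := L.f1
      have h1 := (L.fi t).symm.trans (L.fj t)
      have h2 : f t * f t = 1 := inv_eq_iff_mul_eq_one.1 h1
      exact ht (unit_cube_sq (L.f3 t) h2)
    have hj : σ j = i := by
      rcases hI (σ j) with hj | hj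
      · exact hj
      · exact absurd (σ.injective (hi.trans hj.symm)) hij
    -- `g ∘ β = f ^ ± 1`
    let g' : T → ℂˣ := fun t => g (rAut β hN.fixT t)
    obtain ⟨t₀, ht₀⟩ := L.f_pow
    have hg1 : ∃ t, g' t ≠ 1 := by
      obtain ⟨t, ht⟩ := L.g1
      refine ⟨(rAut β hN.fixT).symm t, ?_⟩
      show g (rAut β hN.fixT ((rAut β hN.fixT).symm t)) ≠ 1
      rw [MulEquiv.apply_symm_apply]
      exact ht
    have h1 : (∀ t, g' t = f t) ∨ ∀ t, g' t = (f t)⁻¹ := by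
      refine eq_or_inv L.f3 (fun t => L.g3 _) L.f1 hg1 (t₀ := t₀) fun t => ?_
      obtain ⟨k, hk, hc⟩ := ht₀ t
      refine ⟨k, hk, ?_⟩
      have h2 : Cz X j ((rAut β hN.fixT (t * (t₀ ^ k)⁻¹) : T) : Y) := by
        rw [rAut_coe, ← hi]
        exact cz_map hN.diag hc
      have h3 := L.kg _ h2
      rw [map_mul, map_inv, map_pow, map_mul, map_inv, map_pow] at h3
      exact mul_inv_eq_one.1 h3
    -- `f ∘ cv j = f`
    have h2 : ∀ t, g' (cv T (R.nsys.norm j) t) = g' t := by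
      intro t
      rcases h1 with h1 | h1 <;> rw [h1, h1, L.fj]
    obtain ⟨t, ht⟩ := L.f1
    apply ht
    have h3 := h2 ((rAut β hN.fixT).symm t)
    have h4 : g' (cv T (R.nsys.norm j) ((rAut β hN.fixT).symm t)) = g (cv T (R.nsys.norm i) t) := by
      show g (rAut β hN.fixT _) = _
      rw [beta_cv hN hT, MulEquiv.apply_symm_apply]
      have h5 : ∀ {k : I}, k = i → g (cv T (R.nsys.norm k) t) = g (cv T (R.nsys.norm i) t) := by
        rintro k rfl; rfl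
      exact h5 hj
    have h5 : g' ((rAut β hN.fixT).symm t) = g t := by
      show g (rAut β hN.fixT _) = _
      rw [MulEquiv.apply_symm_apply]
    rw [h4, h5, L.gi, mul_eq_left] at h3
    exact h3

theorem beta_f [Finite W] (L : L2 R i j f g) (hN : Nrm R β 1) :
    (∀ t, f (rAut β hN.fixT t) = f t) ∨ ∀ t, f (rAut β hN.fixT t) = (f t)⁻¹ := by
  obtain ⟨t₀, ht₀⟩ := L.f_pow
  refine eq_or_inv (g := fun t => f (rAut β hN.fixT t)) L.f3 (fun t => L.f3 _) L.f1 ?_ (t₀ := t₀) fun t => ?_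
  · obtain ⟨t, ht⟩ := L.f1
    refine ⟨(rAut β hN.fixT).symm t, ?_⟩
    show f (rAut β hN.fixT ((rAut β hN.fixT).symm t)) ≠ 1
    rw [MulEquiv.apply_symm_apply]
    exact ht
  · obtain ⟨k, hk, hc⟩ := ht₀ t
    refine ⟨k, hk, ?_⟩
    have h2 : Cz X i ((rAut β hN.fixT (t * (t₀ ^ k)⁻¹) : T) : Y) := by
      rw [rAut_coe]
      exact cz_map hN.diag hc
    have h3 := L.kf _ h2
    rw [map_mul, map_inv, map_pow, map_mul, map_inv, map_pow] at h3
    exact mul_inv_eq_one.1 h3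

theorem beta_g [Finite W] (L : L2 R i j f g) (hN : Nrm R β 1) :
    (∀ t, g (rAut β hN.fixT t) = g t) ∨ ∀ t, g (rAut β hN.fixT t) = (g t)⁻¹ := by
  obtain ⟨t₀, ht₀⟩ := L.g_pow
  refine eq_or_inv (g := fun t => g (rAut β hN.fixT t)) L.g3 (fun t => L.g3 _) L.g1 ?_ (t₀ := t₀) fun t => ?_
  · obtain ⟨t, ht⟩ := L.g1
    refine ⟨(rAut β hN.fixT).symm t, ?_⟩
    show g (rAut β hN.fixT ((rAut β hN.fixT).symm t)) ≠ 1
    rw [MulEquiv.apply_symm_apply]
    exact ht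
  · obtain ⟨k, hk, hc⟩ := ht₀ t
    refine ⟨k, hk, ?_⟩
    have h2 : Cz X j ((rAut β hN.fixT (t * (t₀ ^ k)⁻¹) : T) : Y) := by
      rw [rAut_coe]
      exact cz_map hN.diag hc
    have h3 := L.kg _ h2
    rw [map_mul, map_inv, map_pow, map_mul, map_inv, map_pow] at h3
    exact mul_inv_eq_one.1 h3

/-- **`f` is stable up to the Weyl group.** -/
theorem stable_f [Finite W] (L : L2 R i j f g) (hN : Nrm R β 1) : ∃ (w : W) (y : Y) (hy : Rp cs R.nsys w y),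
    f.comp (rAut β hN.fixT).toMonoidHom = f.comp (cv T hy.mem_normalizer) := by
  rcases L.beta_f hN with h1 | h1
  · refine ⟨1, 1, rp_one, ?_⟩
    ext t
    congr 1
    show f (rAut β hN.fixT t) = f (cv T _ t)
    rw [h1]
    congr 1
    apply Subtype.ext
    rw [coe_cv]
    simp
  · refine ⟨cs.simple i, n i, rp_simple cs R.nsys i, ?_⟩
    ext t
    congr 1
    show f (rAut β hN.fixT t) = f (cv T _ t)
    rw [h1]
    exact (L.fi t).symm

/-- **`g` is stable up to the Weyl group.** -/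
theorem stable_g [Finite W] (L : L2 R i j f g) (hN : Nrm R β 1) : ∃ (w : W) (y : Y) (hy : Rp cs R.nsys w y),
    g.comp (rAut β hN.fixT).toMonoidHom = g.comp (cv T hy.mem_normalizer) := by
  rcases L.beta_g hN with h1 | h1
  · refine ⟨1, 1, rp_one, ?_⟩
    ext t
    congr 1
    show g (rAut β hN.fixT t) = g (cv T _ t)
    rw [h1]
    congr 1
    apply Subtype.ext
    rw [coe_cv]
    simp
  · refine ⟨cs.simple j, n j, rp_simple cs R.nsys j, ?_⟩
    ext t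
    congr 1
    show g (rAut β hN.fixT t) = g (cv T _ t)
    rw [h1]
    exact (L.gj t).symm

theorem f_ne (L : L2 R i j f g) : f ≠ 1 := by
  rintro rfl
  obtain ⟨t, ht⟩ := L.f1
  exact ht rfl

theorem g_ne (L : L2 R i j f g) : g ≠ 1 := by
  rintro rfl
  obtain ⟨t, ht⟩ := L.g1
  exact ht rfl

/-- **`f` and `g` are not conjugate.** -/
theorem not_conj [Finite W] (L : L2 R i j f g) (hT : ∀ x ∈ T, ∀ y ∈ T, x * y = y * x) (hI : ∀ k, k = i ∨ k = j)
    (w : W) (y : Y) (hy : Rp cs R.nsys w y) : f.comp (cv T hy.mem_normalizer) ≠ g := by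
  intro he
  have h1 : f.comp (cv T hy.mem_normalizer) ∈ ({f, f⁻¹} : Set (T →* ℂˣ)) := by
    refine H687.FourK.comp_mem_of_closed R hT {f, f⁻¹} ?_ w f (Or.inl rfl) y hy
    intro k e he
    have hcase : ∀ {u : T →* ℂˣ}, (u = f ∨ u = f⁻¹) → u ∈ ({f, f⁻¹} : Set (T →* ℂˣ)) := fun h => h
    rcases he with rfl | he
    · rcases hI k with rfl | rfl
      · refine hcase (Or.inr ?_)
        ext t
        congr 1
        exact L.fi t
      · refine hcase (Or.inl ?_)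
        ext t
        congr 1
        exact L.fj t
    · rw [Set.mem_singleton_iff] at he
      subst he
      rcases hI k with rfl | rfl
      · refine hcase (Or.inl ?_)
        ext t
        congr 1
        show (f (cv T _ t))⁻¹ = f t
        rw [L.fi, inv_inv]
      · refine hcase (Or.inr ?_)
        ext t
        congr 1
        show (f (cv T _ t))⁻¹ = (f t)⁻¹
        rw [L.fj]
  rw [he] at h1
  obtain ⟨t, ht⟩ := L.g1
  apply ht
  have h2 : g (cv T (R.nsys.norm j) t) = g t := by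
    rcases h1 with h1 | h1
    · rw [h1]; exact L.fj t
    · rw [Set.mem_singleton_iff] at h1
      rw [h1]
      show (f (cv T _ t))⁻¹ = (f t)⁻¹
      rw [L.fj]
  rw [L.gj] at h2
  exact unit_cube_sq (L.g3 t) (inv_eq_iff_mul_eq_one.1 h2)

end L2

end Cfsg.Agent.H433.K547
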